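import Cfsg.Agent.H533.Reg.Fld
import Cfsg.Agent.H89.Reg.Num
import Cfsg.Agent.H269.U5.Res
import Cfsg.Agent.S5663

/-!
# S3691, `PSU_n(q)`, `n ≤ 8`: members of the geometric classes containing a primitive prime (helper533)

* `class_odd`, `class_even`
* `card_res_le` : the order of a residual group
* `exists_max` : a maximal subgroup above a proper subgroup
-/

set_option autoImplicit false
set_option linter.unusedSectionVars false

namespace Cfsg.Agent.H533.Reg

open Module Cfsg Cfsg.Geo Cfsg.Agent.LieClassical.HermBasic Cfsg.Agent.H918 Cfsg.Agent.H251.GeoU Cfsg.Agent.H89.Reg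
open scoped Matrix MatrixGroups

variable {F : Type} [Field F] [Fintype F] {n p f l : ℕ}

section

variable (hF : Fintype.card F = (p ^ f) ^ 2) (hp : p.Prime) (hf : 1 ≤ f)

include hF hp hf

/-- the members of the classes containing a primitive prime `l`, `ord(-q) = m`, `m ≤ n ≤ m + 1` odd -/
theorem class_gen {m : ℕ} (hn : 4 ≤ n) (hm : Odd m) (hmn : m ≤ n) (hnm : n ≤ m + 1) (hl : Pm p f m l)
    {X : Subgroup (GL (Fin n) F)} (hX : InUnitaryClass n F (p ^ f) X) (hd : l ∣ Nat.card X) :
    (n = m + 1 ∧ ∃ W : Submodule F (Fin n → F), finrank F W = 1 ∧ IsNondegenerateOn (hermForm n F (p ^ f)) W ∧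
      X = subspaceStabilizer W ⊓ Cfsg.GU n F (p ^ f)) ∨
    (n = m ∧ ∃ (r : ℕ) (K : Subalgebra F (Matrix (Fin n) (Fin n) F)), r.Prime ∧ Odd r ∧ IsFieldSubalgebra r K ∧
      IsAdjointClosedFor (hermForm n F (p ^ f)) K ∧ X = subalgebraNormalizer K ⊓ Cfsg.GU n F (p ^ f)) := by
  have hne : Nonempty (Fin n) := ⟨⟨0, by omega⟩⟩
  have hm3 : 3 ≤ m := by
    obtain ⟨k, hk⟩ := hm
    omega
  have hs := hl.pr
  have hiff := hl.iff
  have hord := hl.ord hp hf (by omega) hm
  have hsbig : n + 1 < l := by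
    have h2 := hl.lt hp hf (by omega)
    have h3 : 2 * m * 1 ≤ 2 * m * f := Nat.mul_le_mul_left _ hf
    have h4 := hl.dvd_pred hp hf (by omega)
    have h5 := Nat.le_of_dvd (by omega) h4
    omega
  have hm' : 3 ≤ m := hm3
  rcases hX with hM | hM | hM | hM
  · rcases hM with hM | hM | hM | hM | hM | hM | hM | hM
    · obtain ⟨W, hW0, hW, rfl⟩ := hM
      exact (kill_ts hF hs hord hm hn hnm hW0 hW hd).elim
    · obtain ⟨W, hW0, hW, hW2, rfl⟩ := hM
      obtain ⟨hnm', hW1⟩ := kill_nd hF hs hord hm hn hnm hW0 hW2 hd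
      exact Or.inl ⟨hnm', W, hW1, hW, rfl⟩
    · obtain ⟨t, k, D, hD, rfl⟩ := hM
      exact (kill_decomp hF hs hord hm hn hnm (by omega) hD.decomp (dvd_left hd)).elim
    · obtain ⟨k, D, hk, hD, -, rfl⟩ := hM
      exact (kill_decomp hF hs hord hm hn hnm (by omega) hD (dvd_left hd)).elim
    · obtain ⟨F₀, r, P, hr, hro, hc, -, rfl⟩ := hM
      exact (kill_subfield hF hp rfl hf hs hiff hord hm hn hnm hr.two_le hc (dvd_left hd)).elim
    · obtain ⟨F₀, P, -, hc, -, rfl⟩ := hM
      exact (kill_subfield hF hp rfl hf hs hiff hord hm hn hnm le_rfl hc (dvd_left hd)).elim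
    · obtain ⟨F₀, P, ζ, -, hc, -, -, -, -, rfl⟩ := hM
      exact (kill_subfield hF hp rfl hf hs hiff hord hm hn hnm le_rfl hc (dvd_left hd)).elim
    · obtain ⟨r, R, p', e, k, hR, habs, -, -, -, hc, rfl⟩ := hM
      have ht : H920.IsType r k R := by
        rcases hc with ⟨h1, h2, -, h3⟩ | ⟨h1, -, h2, h3⟩
        · exact Or.inl ⟨h1, h2, h3⟩
        · exact Or.inr ⟨h1, h2, h3⟩
      exact (kill_symp hF hs hord hm hn hnm hsbig hR habs ht (dvd_left hd)).elim
  · obtain ⟨r, K, hr, hro, hK, hadj, rfl⟩ := hM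
    have hr3 : 3 ≤ r := by
      have := hr.two_le
      obtain ⟨k, hk⟩ := hro
      omega
    rcases Nat.even_or_odd n with hev | hodd
    · have hnm' : n = m + 1 := by
        obtain ⟨k, hk⟩ := hm
        obtain ⟨l, hl⟩ := hev
        omega
      exact (kill_field_even hF hs hord hm hn hnm' (by omega) hr hr3 hK (dvd_left hd)).elim
    · right
      refine ⟨?_, r, K, hr, hro, hK, hadj, rfl⟩
      obtain ⟨k, hk⟩ := hm
      obtain ⟨l, hl⟩ := hodd
      omega
  · obtain ⟨n₁, n₂, e, P, f₁, f₂, h2, hlt, -, -, -, rfl⟩ := hM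
    exact (kill_tensor hF hs hord hm hn hnm e P h2 hlt (dvd_left hd)).elim
  · obtain ⟨k, t, e, P, f₁, hk, ht, -, -, -, rfl⟩ := hM
    exact (kill_wreath hF hs hord hm hn hnm (by omega) e P hk ht (dvd_left hd)).elim

end

/-- the order of a residual group of matrices of determinant one -/
theorem card_res_le {H P : Subgroup (GL (Fin n) F)} (hn : 0 < n) (hP : IsResidualCore H P)
    (hH : H ≤ specialLinear (Fin n) F) :
    Nat.card H ≤ Nat.card (MulAut (P ⧸ (scalars (Fin n) F).subgroupOf P)) * n := by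
  classical
  obtain ⟨φ, hφ⟩ := H269.U5.exists_act hP
  have hne : Nonempty (Fin n) := ⟨⟨0, hn⟩⟩
  have hfinG : Finite (GL (Fin n) F) := inferInstance
  have hfinP : Finite (P ⧸ (scalars (Fin n) F).subgroupOf P) := inferInstance
  have hfinA : Finite (MulAut (P ⧸ (scalars (Fin n) F).subgroupOf P)) := inferInstance
  have hn0 : NeZero n := ⟨by omega⟩
  have hker : Nat.card φ.ker ≤ n := by
    have hsc : ∀ h : φ.ker, ∃ c : rootsOfUnity n F,
        (((h : H) : GL (Fin n) F) : Matrix (Fin n) (Fin n) F) = ((c : Fˣ) : F) • (1 : Matrix (Fin n) (Fin n) F) := by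
      intro h
      obtain ⟨c, hc⟩ := (mem_scalars_iff _).1 (hφ h h.2)
      have hdet := mem_specialLinear.1 (hH (h : H).2)
      have h2 : c ^ n = 1 := by
        rw [hc, Matrix.det_smul, Matrix.det_one, mul_one, Fintype.card_fin] at hdet
        exact Units.ext (by rw [Units.val_pow_eq_pow_val, hdet, Units.val_one])
      exact ⟨⟨c, (mem_rootsOfUnity n c).2 h2⟩, hc⟩
    choose c hc using hsc
    have hinj : Function.Injective c := by
      intro a b hab
      apply Subtype.ext
      apply Subtype.ext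
      apply Units.ext
      rw [hc, hc, hab]
    have h1 := Nat.card_le_card_of_injective c hinj
    exact h1.trans (card_rootsOfUnity F n)
  have h5 := Subgroup.card_eq_card_quotient_mul_card_subgroup φ.ker
  have h6 : Nat.card (H ⧸ φ.ker) = Nat.card φ.range :=
    Nat.card_congr (QuotientGroup.quotientKerEquivRange φ).toEquiv
  rw [h5, h6]
  exact Nat.mul_le_mul (Nat.card_le_card_of_injective _ φ.range.subtype_injective) hker

/-- a maximal subgroup above a proper subgroup of `SU_n(q)` -/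
theorem exists_max {q : ℕ} {A : Subgroup (SU n F q)} (hA : A ≠ ⊤) :
    ∃ H : Subgroup (GL (Fin n) F), IsMaximalIn (SUg n F q) H ∧ A.map (suHom n F q) ≤ H := by
  obtain ⟨M, hM, hAM⟩ := (eq_top_or_exists_le_coatom A).resolve_left hA
  refine ⟨M.map (suHom n F q), ⟨lt_of_le_of_ne ?_ ?_, ?_⟩, Subgroup.map_mono hAM⟩
  · rw [← map_suHom_top]
    exact Subgroup.map_mono le_top
  · intro he
    rw [← map_suHom_top] at he
    exact hM.1 (Subgroup.map_injective suHom_injective he)
  · intro K hHK hK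
    have hKe : (K.comap (suHom n F q)).map (suHom n F q) = K := Subgroup.map_comap_eq_self (by rw [range_suHom]; exact hK)
    have h1 : M ≤ K.comap (suHom n F q) := by
      intro s hs
      exact hHK ⟨s, hs, rfl⟩
    rcases hM.le_iff.1 h1 with h4 | h4
    · right
      rw [← hKe, h4, map_suHom_top]
    · left
      rw [← hKe, h4]

end Cfsg.Agent.H533.Reg
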