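import Cfsg.Agent.H922.OddFull
import Cfsg.Agent.H918.UBase
import Cfsg.Agent.LieClassical.HermBasic
import Cfsg.Agent.H251.GeoU

/-!
# S3691, `PSU_n(q)`: the normaliser of a field of full degree in `SU_n(q)` (helper533)

* `pow_of_mem` : an isometry in an adjoint closed field of degree `n` has order dividing `q ^ n + 1`
* `card_field_le` : `(q + 1) |N(K) ∩ SU_n(q)| ≤ n ^ 2 (q ^ n + 1)`
-/

set_option autoImplicit false
set_option linter.unusedSectionVars false

namespace Cfsg.Agent.H533.Reg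

open Module Cfsg Cfsg.Geo Cfsg.Agent.LieClassical.HermBasic Cfsg.Agent.H918
open scoped Matrix MatrixGroups

/-- a nontrivial involution of a finite field (copy of helper398) -/
theorem inv_eq_pow {K : Type*} [Field K] [Fintype K] (σ : K ≃+* K) (h2 : ∀ a, σ (σ a) = a) (hne : ∃ a, σ a ≠ a) :
    ∃ Q : ℕ, Fintype.card K = Q ^ 2 ∧ ∀ a, σ a = a ^ Q := by
  classical
  obtain ⟨p, hp⟩ := CharP.exists K
  have hpp : p.Prime := CharP.char_is_prime K p
  have : Fact p.Prime := ⟨hpp⟩
  let _ : Algebra (ZMod p) K := ZMod.algebra K p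
  have hcomm : ∀ r : ZMod p, σ (algebraMap (ZMod p) K r) = algebraMap (ZMod p) K r := fun r =>
    RingHom.congr_fun (Subsingleton.elim ((σ : K →+* K).comp (algebraMap (ZMod p) K))
      (algebraMap (ZMod p) K)) r
  let stA : K ≃ₐ[ZMod p] K := AlgEquiv.ofRingEquiv (f := σ) hcomm
  obtain ⟨⟨n, hnd⟩, hn⟩ := (FiniteField.bijective_frobeniusAlgEquivOfAlgebraic_pow (ZMod p) K).2 stA
  obtain ⟨d, hd⟩ : ∃ d, d = finrank (ZMod p) K := ⟨_, rfl⟩
  have hK : Fintype.card K = p ^ d := by
    have := Module.card_eq_pow_finrank (K := ZMod p) (V := K)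
    rwa [ZMod.card, ← hd] at this
  have hst : ∀ x, σ x = x ^ (p ^ n) := by
    intro x
    have h3 : stA x = x ^ (p ^ n) := by
      rw [← hn]
      simp only
      rw [AlgEquiv.coe_pow, FiniteField.coe_frobeniusAlgEquivOfAlgebraic_iterate, ZMod.card]
    exact h3
  rw [← hd] at hnd
  obtain ⟨g, hg⟩ := IsCyclic.exists_generator (α := Kˣ)
  have hord : orderOf g = p ^ d - 1 := by
    rw [orderOf_eq_card_of_forall_mem_zpowers hg, Nat.card_eq_fintype_card, Fintype.card_units, hK]
  have h3 : g ^ (p ^ n * p ^ n) = g ^ 1 := by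
    apply Units.ext
    have := h2 (g : K)
    rw [hst, hst, ← pow_mul] at this
    rw [Units.val_pow_eq_pow_val, this, pow_one]
  rw [pow_eq_pow_iff_modEq, hord, ← pow_add] at h3
  have hp1 := hpp.one_lt
  have hn0 : n ≠ 0 := by
    intro h0
    obtain ⟨a, ha⟩ := hne
    exact ha (by rw [hst, h0, pow_zero, pow_one])
  have hmod : ∀ k, k < d → p ^ k ≡ 1 [MOD p ^ d - 1] → k = 0 := by
    intro k hk h
    by_contra hk0
    have h4 : 1 < p ^ k := Nat.one_lt_pow hk0 hp1
    have h5 : p ^ k < p ^ d := Nat.pow_lt_pow_right hp1 hk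
    have h6 := (Nat.modEq_iff_dvd' (by omega)).1 h.symm
    have h7 := Nat.le_of_dvd (by omega) h6
    omega
  have h4 : d = n + n := by
    rcases Nat.lt_or_ge (n + n) d with h | h
    · have := hmod _ h h3
      omega
    · have h5 : p ^ (n + n) ≡ p ^ (n + n - d) [MOD p ^ d - 1] := by
        have h6 : p ^ (n + n) = p ^ d * p ^ (n + n - d) := by
          rw [← pow_add]
          congr 1
          omega
        have h7 : p ^ d ≡ 1 [MOD p ^ d - 1] := by
          have h8 : 1 ≤ p ^ d := Nat.one_le_pow _ _ hpp.pos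
          have h9 : p ^ d = (p ^ d - 1) + 1 := by omega
          conv_lhs => rw [h9]
          exact Nat.add_modEq_left
        rw [h6]
        have := h7.mul_right (p ^ (n + n - d))
        rwa [one_mul] at this
      have h6 := hmod _ (by omega) (h5.symm.trans h3)
      omega
  refine ⟨p ^ n, ?_, hst⟩
  rw [hK, ← pow_mul, h4]
  congr 1
  omega

variable {F : Type*} [Field F] [Fintype F] {n q : ℕ}

theorem one_lt_q (hF : Fintype.card F = q ^ 2) : 1 < q := by
  have h1 := Fintype.one_lt_card (α := F)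
  rw [hF] at h1
  by_contra h
  have h2 : q ^ 2 ≤ 1 ^ 2 := Nat.pow_le_pow_left (by omega) 2
  omega

theorem exists_not_fixed (hF : Fintype.card F = q ^ 2) : ∃ c : F, c ^ q ≠ c := by
  by_contra h
  push Not at h
  have hq := one_lt_q hF
  have h1 : Fintype.card F ≤ q := by
    classical
    have h2 : (Finset.univ : Finset F) ⊆ (Polynomial.X ^ q - Polynomial.X : Polynomial F).roots.toFinset := by
      intro c _
      rw [Multiset.mem_toFinset, Polynomial.mem_roots (FiniteField.X_pow_card_sub_X_ne_zero F hq)]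
      simp [h c]
    calc Fintype.card F = (Finset.univ : Finset F).card := rfl
      _ ≤ _ := Finset.card_le_card h2
      _ ≤ _ := Multiset.toFinset_card_le _
      _ ≤ _ := Polynomial.card_roots' _
      _ = q := FiniteField.X_pow_card_sub_X_natDegree_eq F hq
  rw [hF] at h1
  nlinarith

theorem mulVec_unique (hF : Fintype.card F = q ^ 2) {a b : Matrix (Fin n) (Fin n) F}
    (h : ∀ u v : Fin n → F, hermForm n F q u (a *ᵥ v) = hermForm n F q u (b *ᵥ v)) : a = b := by
  apply Matrix.toLin'.injective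
  apply LinearMap.ext
  intro v
  rw [Matrix.toLin'_apply, Matrix.toLin'_apply]
  have h1 : a *ᵥ v - b *ᵥ v = 0 := by
    apply herm_nondeg hF
    intro u
    apply herm_eq_zero_swap hF
    rw [herm_sub_right hF, h, sub_self]
  exact sub_eq_zero.1 h1

/-- an isometry in an adjoint closed field of full degree -/
theorem pow_of_mem (hF : Fintype.card F = q ^ 2) (hn : 0 < n) {K : Subalgebra F (Matrix (Fin n) (Fin n) F)}
    (hK : IsFieldSubalgebra n K) (hadj : IsAdjointClosedFor (hermForm n F q) K) {a : Matrix (Fin n) (Fin n) F}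
    (ha : a ∈ K) (hiso : ∀ u v, hermForm n F q (a *ᵥ u) (a *ᵥ v) = hermForm n F q u v) : a ^ (q ^ n + 1) = 1 := by
  classical
  have hne : Nonempty (Fin n) := ⟨⟨0, hn⟩⟩
  let _ : Field K := (H912.isField_of_fieldSub hK).toField
  have hKfin : Finite K := Module.finite_of_finite F
  let _ : Fintype K := Fintype.ofFinite K
  have hadj' : ∀ k : K, ∃ k' : K, ∀ u v : Fin n → F,
      hermForm n F q ((k : Matrix (Fin n) (Fin n) F) *ᵥ u) v = hermForm n F q u ((k' : Matrix (Fin n) (Fin n) F) *ᵥ v) := by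
    intro k
    obtain ⟨k', hk', h⟩ := hadj k k.2
    exact ⟨⟨k', hk'⟩, h⟩
  choose f hf using hadj'
  have huniq : ∀ {b c : K}, (∀ u v : Fin n → F, hermForm n F q u ((b : Matrix (Fin n) (Fin n) F) *ᵥ v) =
      hermForm n F q u ((c : Matrix (Fin n) (Fin n) F) *ᵥ v)) → b = c := fun h => Subtype.ext (mulVec_unique hF h)
  have hff : ∀ a, f (f a) = a := by
    intro a
    apply huniq
    intro u v
    rw [← hf, herm_swap hF v, ← hf, ← herm_swap hF]
  have hadd : ∀ a b, f (a + b) = f a + f b := by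
    intro a b
    apply huniq
    intro u v
    rw [← hf, Subalgebra.coe_add, Subalgebra.coe_add, Matrix.add_mulVec, Matrix.add_mulVec, herm_add_left, herm_add_right hF,
      hf, hf]
  have hmul : ∀ a b, f (a * b) = f a * f b := by
    intro a b
    apply huniq
    intro u v
    rw [← hf, Subalgebra.coe_mul, Subalgebra.coe_mul, ← Matrix.mulVec_mulVec, ← Matrix.mulVec_mulVec, hf, hf]
    have h1 : (f b : Matrix (Fin n) (Fin n) F) * f a = f a * f b := hK.comm _ (f b).2 _ (f a).2
    rw [Matrix.mulVec_mulVec, Matrix.mulVec_mulVec, h1]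
  let σ : K ≃+* K := { toFun := f, invFun := f, left_inv := hff, right_inv := hff, map_mul' := hmul, map_add' := hadd }
  obtain ⟨c, hc⟩ := exists_not_fixed hF
  have hσc : f (algebraMap F K c) = algebraMap F K (c ^ q) := by
    apply huniq
    intro u v
    rw [← hf]
    have h1 : ∀ x : F, ((algebraMap F K x : K) : Matrix (Fin n) (Fin n) F) = x • (1 : Matrix (Fin n) (Fin n) F) := by
      intro x
      rw [Subalgebra.coe_algebraMap, Algebra.algebraMap_eq_smul_one]
    rw [h1, h1, Matrix.smul_mulVec, Matrix.smul_mulVec, Matrix.one_mulVec, Matrix.one_mulVec, herm_smul_left,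
      herm_smul_right, pow_q_pow_q hF]
  obtain ⟨Q, hQ, hQa⟩ := inv_eq_pow σ hff ⟨algebraMap F K c, fun h => hc ((algebraMap F K).injective (by
    rw [← hσc]; exact h))⟩
  have hcard : Fintype.card K = (q ^ n) ^ 2 := by
    rw [Module.card_eq_pow_finrank (K := F), hK.finrank_eq, hF, ← pow_mul, ← pow_mul, mul_comm]
  have hQn : Q = q ^ n := by
    rw [hcard] at hQ
    exact (Nat.pow_left_injective two_ne_zero hQ).symm
  have h1 : f ⟨a, ha⟩ * ⟨a, ha⟩ = 1 := by
    apply huniq
    intro u v
    rw [Subalgebra.coe_mul, ← Matrix.mulVec_mulVec, ← hf]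
    change hermForm n F q (a *ᵥ u) (a *ᵥ v) = _
    rw [hiso, Subalgebra.coe_one, Matrix.one_mulVec]
  have h2 : (⟨a, ha⟩ : K) ^ (q ^ n + 1) = 1 := by
    rw [pow_succ, ← hQn, ← hQa]
    exact h1
  have h3 := congrArg (Subtype.val : K → Matrix (Fin n) (Fin n) F) h2
  exact h3

/-- elements of `K` with `a ^ (q + 1) = 1` are scalars -/
theorem scalar_of_pow (hF : Fintype.card F = q ^ 2) (hn : 0 < n) {K : Subalgebra F (Matrix (Fin n) (Fin n) F)}
    (hK : IsFieldSubalgebra n K) {a : Matrix (Fin n) (Fin n) F}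
    (ha : a ∈ K) (h : a ^ (q + 1) = 1) : ∃ c : Fˣ, a = (c : F) • (1 : Matrix (Fin n) (Fin n) F) := by
  classical
  have hne : Nonempty (Fin n) := ⟨⟨0, hn⟩⟩
  let _ : Field K := (H912.isField_of_fieldSub hK).toField
  have hKfin : Finite K := Module.finite_of_finite F
  have hk : (⟨a, ha⟩ : K) ^ (q + 1) = 1 := Subtype.ext h
  have hq := one_lt_q hF
  -- the roots in `K`
  have hroots : Nat.card (powMonoidHom (q + 1) : Kˣ →* Kˣ).ker ≤ q + 1 := by
    rw [IsCyclic.card_powMonoidHom_ker]
    exact Nat.gcd_le_right _ (by omega)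
  have hF1 : Nat.card (powMonoidHom (q + 1) : Fˣ →* Fˣ).ker = q + 1 := by
    rw [IsCyclic.card_powMonoidHom_ker, Nat.card_units, Nat.card_eq_fintype_card, hF]
    have h1 : q ^ 2 - 1 = (q + 1) * (q - 1) := by
      have := Nat.sq_sub_sq q 1
      rwa [one_pow] at this
    rw [h1, Nat.gcd_comm]
    exact Nat.gcd_mul_right_right _ _
  let g : (powMonoidHom (q + 1) : Fˣ →* Fˣ).ker → (powMonoidHom (q + 1) : Kˣ →* Kˣ).ker := fun x =>
    ⟨Units.map (algebraMap F K).toMonoidHom x.1, by
      have h1 : (x.1 : Fˣ) ^ (q + 1) = 1 := x.2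
      rw [MonoidHom.mem_ker, powMonoidHom_apply, ← map_pow, h1, map_one]⟩
  have hg : Function.Injective g := by
    intro x y hxy
    apply Subtype.ext
    apply Units.ext
    apply (algebraMap F K).injective
    exact congrArg (fun z : (powMonoidHom (q + 1) : Kˣ →* Kˣ).ker => ((z : Kˣ) : K)) hxy
  have hfin : Finite (powMonoidHom (q + 1) : Kˣ →* Kˣ).ker := inferInstance
  have hbij : Function.Bijective g := by
    refine (Nat.bijective_iff_injective_and_card g).2 ⟨hg, le_antisymm ?_ ?_⟩
    · exact Nat.card_le_card_of_injective g hg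
    · rw [hF1]; exact hroots
  have hu : IsUnit (⟨a, ha⟩ : K) := IsUnit.of_pow_eq_one hk (by omega)
  obtain ⟨u, hu⟩ := hu
  have huk : u ∈ (powMonoidHom (q + 1) : Kˣ →* Kˣ).ker := by
    rw [MonoidHom.mem_ker, powMonoidHom_apply]
    apply Units.ext
    rw [Units.val_pow_eq_pow_val, hu, hk, Units.val_one]
  obtain ⟨c, hc⟩ := hbij.2 ⟨u, huk⟩
  refine ⟨c.1, ?_⟩
  have h1 : ((u : Kˣ) : K) = algebraMap F K ((c.1 : Fˣ) : F) := by
    have := congrArg (fun z : (powMonoidHom (q + 1) : Kˣ →* Kˣ).ker => ((z : Kˣ) : K)) hc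
    exact this.symm
  have h2 : a = ((⟨a, ha⟩ : K) : Matrix (Fin n) (Fin n) F) := rfl
  rw [h2, ← hu, h1, Subalgebra.coe_algebraMap, Algebra.algebraMap_eq_smul_one]

/-- **the normaliser of a field of full degree in `SU_n(q)`** -/
theorem card_field_le (hF : Fintype.card F = q ^ 2) (hn : 0 < n) (hodd : Odd n) {K : Subalgebra F (Matrix (Fin n) (Fin n) F)}
    (hK : IsFieldSubalgebra n K) (hadj : IsAdjointClosedFor (hermForm n F q) K) :
    (q + 1) * Nat.card (subalgebraNormalizer K ⊓ SUg n F q : Subgroup (GL (Fin n) F)) ≤ n ^ 2 * (q ^ n + 1) := by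
  classical
  have hne : Nonempty (Fin n) := ⟨⟨0, hn⟩⟩
  have hfin : Finite (GL (Fin n) F) := inferInstance
  have hN : H912.NormAlg (subalgebraNormalizer K) K := fun _ hh a ha => (hh a).mp ha
  let _ : Field K := (H912.isField_of_fieldSub hK).toField
  have hfd : Module.Finite F K := inferInstance
  have hKfin : Finite K := Module.finite_of_finite F
  have hgal : IsGalois F K := inferInstance
  set S := (subalgebraNormalizer K ⊓ SUg n F q : Subgroup (GL (Fin n) F)) with hS
  let φ0 : subalgebraNormalizer K →* (K ≃ₐ[F] K) :=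
    { toFun := fun h => H912.conjSub hN h
      map_one' := by
        apply AlgEquiv.ext
        intro x
        apply Subtype.ext
        rw [H912.conjSub_coe]
        simp
      map_mul' := fun a b => by
        apply AlgEquiv.ext
        intro x
        apply Subtype.ext
        rw [AlgEquiv.mul_apply, H912.conjSub_coe, H912.conjSub_coe, H912.conjSub_coe, Subgroup.coe_mul,
          _root_.mul_inv_rev, Units.val_mul, Units.val_mul]
        simp only [Matrix.mul_assoc] }
  let φ : S →* (K ≃ₐ[F] K) := φ0.comp (Subgroup.inclusion inf_le_left)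
  have hmem : ∀ g : φ.ker, (((g : S) : GL (Fin n) F) : Matrix (Fin n) (Fin n) F) ∈ K := by
    intro g
    apply H922.mem_of_commute (by rwa [Fintype.card_fin]) (by rwa [Fintype.card_fin])
    intro k hk
    have h1 : (H912.conjSub hN (Subgroup.inclusion inf_le_left (g : S) : subalgebraNormalizer K)) = 1 := g.2
    have h2 := H912.conjSub_coe hN (Subgroup.inclusion inf_le_left (g : S) : subalgebraNormalizer K) ⟨k, hk⟩
    rw [h1] at h2
    change k = (((g : S) : GL (Fin n) F) : Matrix (Fin n) (Fin n) F) * k * ((((g : S) : GL (Fin n) F)⁻¹ : GL (Fin n) F) : Matrix (Fin n) (Fin n) F) at h2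
    conv_rhs => rw [h2]
    rw [Matrix.mul_assoc, ← Units.val_mul, inv_mul_cancel, Units.val_one, Matrix.mul_one]
  let ψ : φ.ker →* K :=
    { toFun := fun g => ⟨_, hmem g⟩
      map_one' := rfl
      map_mul' := fun a b => rfl }
  have hψ : Function.Injective ψ := by
    intro a b hab
    apply Subtype.ext
    apply Subtype.ext
    apply Units.ext
    exact congrArg Subtype.val hab
  have hcyc : IsCyclic φ.ker := isCyclic_of_injective_ringHom ψ hψ
  obtain ⟨g, hg⟩ := IsCyclic.exists_generator (α := φ.ker)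
  have hgc : orderOf g = Nat.card φ.ker := orderOf_eq_card_of_forall_mem_zpowers hg
  set c := Nat.card φ.ker with hc
  have hcpos : 0 < c := Nat.card_pos
  -- powers
  have hpow : ∀ m : ℕ, ((((g ^ m : φ.ker) : S) : GL (Fin n) F) : Matrix (Fin n) (Fin n) F) =
      ((((g : φ.ker) : S) : GL (Fin n) F) : Matrix (Fin n) (Fin n) F) ^ m := fun m => by
    rw [Subgroup.coe_pow, Subgroup.coe_pow, Units.val_pow_eq_pow_val]
  have h1 : c ∣ q ^ n + 1 := by
    rw [← hgc, orderOf_dvd_iff_pow_eq_one]
    apply Subtype.ext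
    apply Subtype.ext
    apply Units.ext
    rw [hpow]
    refine pow_of_mem hF hn hK hadj (hmem g) fun u v => ?_
    have h2 := ((g : S) : S).2.2
    exact (mem_SUg.1 h2).1 u v
  set d := Nat.gcd c (q + 1) with hd
  have hdpos : 0 < d := Nat.gcd_pos_of_pos_left _ hcpos
  have hdc : d ∣ c := Nat.gcd_dvd_left _ _
  have hdn : d ∣ n := by
    have ho : orderOf (g ^ (c / d)) = d := by
      rw [orderOf_pow_of_dvd (Nat.div_pos (Nat.le_of_dvd hcpos hdc) hdpos).ne' (by rw [hgc]; exact Nat.div_dvd_of_dvd hdc), hgc]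
      exact Nat.div_div_self hdc hcpos.ne'
    have h2 : (((((g ^ (c / d) : φ.ker) : S) : GL (Fin n) F) : Matrix (Fin n) (Fin n) F)) ^ (q + 1) = 1 := by
      have h3 : (g ^ (c / d)) ^ (q + 1) = 1 := by
        rw [← orderOf_dvd_iff_pow_eq_one, ho]
        exact Nat.gcd_dvd_right _ _
      rw [hpow, ← pow_mul, ← hpow, pow_mul, h3]
      rfl
    obtain ⟨z, hz⟩ := scalar_of_pow hF hn hK (hmem (g ^ (c / d))) h2
    have hdet : (z : F) ^ n = 1 := by
      have h3 := ((g ^ (c / d) : φ.ker) : S).2.2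
      have h4 := (mem_SUg.1 h3).2
      rw [hz, Matrix.det_smul, Matrix.det_one, mul_one, Fintype.card_fin] at h4
      exact h4
    rw [← ho, orderOf_dvd_iff_pow_eq_one]
    apply Subtype.ext
    apply Subtype.ext
    apply Units.ext
    rw [Subgroup.coe_pow, Subgroup.coe_pow, Units.val_pow_eq_pow_val, hz, smul_pow, one_pow, hdet, one_smul]
    rfl
  have hdle : d ≤ n := Nat.le_of_dvd hn hdn
  -- `c ≤ n R`
  obtain ⟨R, hR⟩ : q + 1 ∣ q ^ n + 1 := by
    have := hodd.nat_add_dvd_pow_add_pow q 1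
    rwa [one_pow] at this
  have hcR : c ≤ n * R := by
    have h2 : c / d ∣ ((q + 1) / d) * R := by
      apply Nat.dvd_of_mul_dvd_mul_left hdpos
      rw [Nat.mul_div_cancel' hdc, ← mul_assoc, Nat.mul_div_cancel' (Nat.gcd_dvd_right _ _), ← hR]
      exact h1
    have h3 : Nat.Coprime (c / d) ((q + 1) / d) := Nat.coprime_div_gcd_div_gcd hdpos
    have h4 : c / d ∣ R := h3.dvd_of_dvd_mul_left h2
    have hRpos : 0 < R := by
      rcases Nat.eq_zero_or_pos R with h | h
      · rw [h] at hR; omega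
      · exact h
    calc c = d * (c / d) := (Nat.mul_div_cancel' hdc).symm
      _ ≤ n * R := Nat.mul_le_mul hdle (Nat.le_of_dvd hRpos h4)
  have hran : Nat.card φ.range ≤ n := by
    have h1 : Nat.card (K ≃ₐ[F] K) = n := by
      rw [IsGalois.card_aut_eq_finrank, hK.finrank_eq]
    have hf2 : Finite (K ≃ₐ[F] K) := Nat.finite_of_card_ne_zero (by rw [h1]; omega)
    calc Nat.card φ.range ≤ Nat.card (K ≃ₐ[F] K) := Nat.card_le_card_of_injective _ φ.range.subtype_injective
      _ = n := h1
  have h5 := Subgroup.card_eq_card_quotient_mul_card_subgroup φ.ker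
  have h6 : Nat.card (S ⧸ φ.ker) = Nat.card φ.range :=
    Nat.card_congr (QuotientGroup.quotientKerEquivRange φ).toEquiv
  rw [h5, h6, hR]
  calc (q + 1) * (Nat.card φ.range * c) ≤ (q + 1) * (n * (n * R)) := by gcongr
    _ = n ^ 2 * ((q + 1) * R) := by ring

end Cfsg.Agent.H533.Reg
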